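import Cfsg.Agent.Lib.Helper60.Cert.Basic

/-!
Conjugacy certificates on top of the generic layer of packed matrix groups: an enumerated
subgroup all of whose non-identity elements are conjugate (inside a larger subgroup) to one
of them, and elements normalising an enumerated subgroup.
-/

set_option autoImplicit false

namespace Cfsg.Agent.Lib.Helper60.Cert

section

variable {M : Type*} [Monoid M] {μ : Model M} {𝒢 : Type*} [Group 𝒢] {ψ : 𝒢 →* M}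

/-- conjugacy of two elements of a subgroup from a packed conjugator -/
theorem isConj_of_cert (hψ : Function.Injective ψ) {H : Subgroup 𝒢} {a b w : ℕ} (x y : H)
    (hx : ψ (x : 𝒢) = μ.toM a) (hy : ψ (y : 𝒢) = μ.toM b) (hw : Real μ ψ H w)
    (h : μ.mulP w a = μ.mulP b w) : IsConj x y := by
  obtain ⟨g, hg, hgv⟩ := hw
  rw [isConj_iff]
  refine ⟨⟨g, hg⟩, ?_⟩
  have e1 : ψ (g * (x : 𝒢)) = ψ ((y : 𝒢) * g) := by
    rw [map_mul, map_mul, hgv, hx, hy, ← μ.toM_mul, ← μ.toM_mul, h]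
  have e2 : g * (x : 𝒢) = (y : 𝒢) * g := hψ e1
  apply Subtype.ext
  simp only [Subgroup.coe_mul, Subgroup.coe_inv]
  rw [e2, mul_inv_cancel_right]

/-- an enumerated subgroup of `H` whose non-identity elements are all conjugate in `H` to the
element number one of the table -/
theorem conj_class_cert [Finite 𝒢] (hψ : Function.Injective ψ) (H : Subgroup 𝒢) {D : LData}
    (ok : LOK μ D) (hgen : ∀ l < D.r, Real μ ψ H (D.gen l)) (cw : ℕ → ℕ) (hN : 1 < D.N)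
    (hw : ∀ j, j + 1 < D.N →
      Real μ ψ H (cw j) ∧ μ.mulP (cw j) (D.T 1) = μ.mulP (D.T (j + 1)) (cw j))
    (hne : μ.neq (D.T 1) μ.oneP = true) :
    ∃ (P : Subgroup H) (z : H), Nat.card P = D.N ∧ z ∈ P ∧ z ≠ 1 ∧ ψ (z : 𝒢) = μ.toM (D.T 1) ∧
      (∀ a ∈ P, a ≠ 1 → IsConj z a) ∧
      (∀ a : H, a ∈ P ↔ (a : 𝒢) ∈ genGrp μ ψ D.gen D.r) := by
  have hle : genGrp μ ψ D.gen D.r ≤ H := genGrp_le hψ H hgen
  have hex : ∀ l < D.r, ∃ g, ψ g = μ.toM (D.gen l) := by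
    intro l hl
    obtain ⟨g, _, hg⟩ := hgen l hl
    exact ⟨g, hg⟩
  have hcard : Nat.card ((genGrp μ ψ D.gen D.r).subgroupOf H) = D.N := by
    rw [← card_L ok hψ hex]
    exact Nat.card_congr (Subgroup.subgroupOfEquivOfLe hle).toEquiv
  obtain ⟨z, hzP, hzv⟩ := L_sup ok hex 1 hN
  refine ⟨(genGrp μ ψ D.gen D.r).subgroupOf H, ⟨z, hle hzP⟩, hcard,
    Subgroup.mem_subgroupOf.mpr hzP, ?_, hzv, ?_, fun a => Subgroup.mem_subgroupOf⟩
  · intro e
    have e' : z = 1 := congrArg Subtype.val e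
    exact ne_one_of hzv hne e'
  · intro a ha ha1
    have haP : (a : 𝒢) ∈ genGrp μ ψ D.gen D.r := Subgroup.mem_subgroupOf.mp ha
    obtain ⟨j, hj, hjv⟩ := L_sub ok _ haP
    rcases Nat.eq_zero_or_pos j with rfl | hpos
    · exfalso; apply ha1
      apply Subtype.ext; apply hψ
      rw [hjv, ok.t0, μ.toM_one, Subgroup.coe_one, map_one]
    · obtain ⟨j', rfl⟩ : ∃ j', j = j' + 1 := ⟨j - 1, by omega⟩
      obtain ⟨hr, hc⟩ := hw j' hj
      exact isConj_of_cert hψ (⟨z, hle hzP⟩ : H) a hzv hjv hr hc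

/-- an element normalising an enumerated subgroup -/
theorem normalizes_cert [Finite 𝒢] (hψ : Function.Injective ψ) (H : Subgroup 𝒢) {D : LData}
    (ok : LOK μ D) (hex : ∀ l < D.r, ∃ g, ψ g = μ.toM (D.gen l)) (P : Subgroup H)
    (hP : ∀ a : H, a ∈ P ↔ (a : 𝒢) ∈ genGrp μ ψ D.gen D.r) (y : H) (yP : ℕ)
    (hy : ψ (y : 𝒢) = μ.toM yP) (perm : ℕ → ℕ)
    (hperm : ∀ j < D.N, perm j < D.N ∧ μ.mulP (D.T j) yP = μ.mulP yP (D.T (perm j))) :
    ∀ a ∈ P, y⁻¹ * a * y ∈ P := by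
  intro a ha
  obtain ⟨j, hj, hjv⟩ := L_sub ok _ ((hP a).mp ha)
  obtain ⟨hp, he⟩ := hperm j hj
  obtain ⟨t, htP, htv⟩ := L_sup ok hex _ hp
  have e1 : ψ ((a : 𝒢) * (y : 𝒢)) = ψ ((y : 𝒢) * t) := by
    rw [map_mul, map_mul, hjv, hy, htv, ← μ.toM_mul, ← μ.toM_mul, he]
  have e2 : (a : 𝒢) * (y : 𝒢) = (y : 𝒢) * t := hψ e1
  rw [hP]
  have e3 : ((y⁻¹ * a * y : H) : 𝒢) = t := by
    simp only [Subgroup.coe_mul, Subgroup.coe_inv]
    rw [mul_assoc, e2, inv_mul_cancel_left]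
  rw [e3]
  exact htP

end

end Cfsg.Agent.Lib.Helper60.Cert
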